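import Cfsg.Agent.H70.OutCount
import Cfsg.Agent.H135.TwoGen
import Cfsg.Agent.CpAut.RgdUntw
import Cfsg.Agent.H891.Gen.Defs

/-!
# Generating pairs in cosets of `Inn T`, `T = D.group F` (helper134, for S4180)

`T = D.group F`, `D` one of the tabulated data, `F` a finite field.

* `Mono v W c σ` : the automorphism `v` maps `x_s(t)` to `x_{W s}(c_s σ_s(t))`, for all roots `s`;
* `exists_mono` : every automorphism of `T` is an inner one times a `Mono`;
* `exists_adjust` : a torus element in a given coset with prescribed values at two roots;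
* `core` : the torus trick;
* `inn_le_of_run` : the closure computation with the permutation `W`.
-/

set_option autoImplicit false
set_option linter.unusedSectionVars false

namespace Cfsg.Agent.H134.Cos

open scoped Pointwise
open Cfsg Cfsg.Lie Cfsg.Agent.ChevalleyStructure Cfsg.Agent.ChevalleyStructure.Elts
  Cfsg.Agent.ChevalleyStructure.NConj Cfsg.Agent.ChevalleyStructure.BNChev Cfsg.Agent.S1042
  Cfsg.Agent.Schreier.ChevLocal Cfsg.Agent.H70.AutFix Cfsg.Agent.H70.ChevTab Cfsg.Agent.H70.ChevFix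
  Cfsg.Agent.H70.ChevField Cfsg.Agent.H70.OutCount Cfsg.Agent.H135.TwoG
open Cfsg.Agent.H891.Gen (Lift)

universe u

variable {D : ChevalleyDatum} (hD : InList D) {F : Type u} [Field F]

/-! ### monomial automorphisms -/

/-- `v x_s(t) = x_{W s}(c_s σ_s(t))` for all roots `s` -/
structure Mono (v : MulAut ↥(D.group F)) (W : ℕ → ℕ) (c : ℕ → F) (σ : ℕ → (F ≃+* F)) : Prop where
  lt : ∀ s < D.nroots, W s < D.nroots
  ne : ∀ s < D.nroots, c s ≠ 0
  eq : ∀ s < D.nroots, ∀ t, v (xe hD s t) = xe hD (W s) (c s * σ s t)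

variable {hD}

theorem Mono.mul {v v' : MulAut ↥(D.group F)} {W W' : ℕ → ℕ} {c c' : ℕ → F} {σ σ' : ℕ → (F ≃+* F)}
    (h : Mono hD v W c σ) (h' : Mono hD v' W' c' σ') :
    Mono hD (v * v') (fun s => W (W' s)) (fun s => c (W' s) * σ (W' s) (c' s)) fun s => σ (W' s) * σ' s where
  lt s hs := h.lt _ (h'.lt s hs)
  ne s hs := mul_ne_zero (h.ne _ (h'.lt s hs)) ((map_ne_zero _).2 (h'.ne s hs))
  eq s hs t := by
    rw [MulAut.mul_apply, h'.eq s hs, h.eq _ (h'.lt s hs), map_mul, mul_assoc]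
    rfl

theorem Mono.congr {v : MulAut ↥(D.group F)} {W W' : ℕ → ℕ} {c c' : ℕ → F} {σ σ' : ℕ → (F ≃+* F)}
    (h : Mono hD v W c σ) (hW : ∀ s < D.nroots, W' s = W s) (hc : ∀ s < D.nroots, c' s = c s)
    (hσ : ∀ s < D.nroots, σ' s = σ s) : Mono hD v W' c' σ' where
  lt s hs := by rw [hW s hs]; exact h.lt s hs
  ne s hs := by rw [hc s hs]; exact h.ne s hs
  eq s hs t := by rw [hW s hs, hc s hs, hσ s hs]; exact h.eq s hs t

theorem mono_one : Mono hD (1 : MulAut ↥(D.group F)) (fun s => s) (fun _ => 1) fun _ => 1 where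
  lt _ hs := hs
  ne _ _ := one_ne_zero
  eq s _ t := by rw [one_mul]; rfl

/-- the word in the `n`'s as an element of `T` -/
def we (hD : InList D) (F : Type u) [Field F] (l : List ℕ) : ↥(D.group F) := ⟨wG hD F l, wG_mem_group hD l⟩

theorem mono_we {l : List ℕ} (hl : ∀ i ∈ l, i < D.rank) :
    ∃ c, Mono hD (MulAut.conj (we hD F l)) (wact D l) c fun _ => 1 := by
  choose! c hc h using fun (s : ℕ) (hs : s < D.nroots) => wG_conj (F := F) hD hl hs
  refine ⟨c, ⟨fun s hs => wact_lt hD hl hs, fun s hs => ?_, fun s hs t => ?_⟩⟩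
  · rcases hc s hs with h1 | h1 <;> rw [h1]
    · exact one_ne_zero
    · exact neg_ne_zero.2 one_ne_zero
  · apply Subtype.ext
    exact h s hs t

theorem mono_diag {χ : ℕ → Fˣ} (h : H70.ChevDiag.IsMul D χ) :
    Mono hD (H70.ChevDiag.diagAut hD h) (fun s => s) (fun s => (χ s : F)) fun _ => 1 where
  lt _ hs := hs
  ne s _ := (χ s).ne_zero
  eq s _ t := diagAut_xe hD h s t

/-- the field automorphism -/
noncomputable abbrev fl (D : ChevalleyDatum) {F : Type u} [Field F] (τ : F ≃+* F) : MulAut ↥(D.group F) :=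
  Cfsg.Agent.CpAut.RgdUntw.fld D τ

theorem fl_xe (τ : F ≃+* F) (r : ℕ) (t : F) : fl D τ (xe hD r t) = xe hD r (τ t) := by
  apply Subtype.ext
  apply Units.ext
  rw [Cfsg.Agent.CpAut.RgdUntw.fld_coe]
  exact ChevStructure.FieldMap.x_map D (τ : F →+* F) r t

theorem mono_fl (τ : F ≃+* F) : Mono hD (fl D τ) (fun s => s) (fun _ => 1) fun _ => τ where
  lt _ hs := hs
  ne _ _ := one_ne_zero
  eq s _ t := by rw [fl_xe, one_mul]

/-- conjugation by the torus element `h_{p_i}(c)` -/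
theorem mono_he {i : ℕ} (hi : i < D.rank) {c : F} (hc : c ≠ 0) :
    Mono hD (MulAut.conj (he hD (D.simple i) c)) (fun s => s) (fun s => c ^ D.cartan i s) fun _ => 1 where
  lt _ hs := hs
  ne s _ := zpow_ne_zero _ hc
  eq s hs t := by rw [MulAut.conj_apply, he_conj hD hi hs hc]; rfl

/-- two automorphisms which agree on the root elements are equal -/
theorem ext_xe {φ ψ : MulAut ↥(D.group F)} (h : ∀ s < D.nroots, ∀ t : F, φ (xe hD s t) = ψ (xe hD s t)) : φ = ψ :=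
  ext_values hD (fun i t => h _ (simple_lt hD i.2) t) fun i t => h _ (neg_simple_lt hD i.2) t

/-! ### every automorphism is monomial up to an inner one -/

/-- the function `P` on the roots extends the permutation `π` of the nodes -/
def Ext (D : ChevalleyDatum) (π : Equiv.Perm (Fin D.rank)) (P : ℕ → ℕ) : Prop :=
  (∀ i : Fin D.rank, P (D.simple i) = D.simple (π i)) ∧ (∀ s < D.nroots, P s < D.nroots) ∧
    ∀ i : Fin D.rank, ∀ s < D.nroots, P (D.reflectRoot i s) = D.reflectRoot (π i) (P s)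

instance (D : ChevalleyDatum) (π : Equiv.Perm (Fin D.rank)) (P : ℕ → ℕ) : Decidable (Ext D π P) := by
  unfold Ext; infer_instance

theorem ne_conj {i s : ℕ} (hi : i < D.rank) (hs : s < D.nroots) {c : F} (hc : c ≠ 0) :
    ∃ η : F, η ≠ 0 ∧ ∀ t : F, ne hD (D.simple i) c * xe hD s t * (ne hD (D.simple i) c)⁻¹ =
      xe hD (D.reflectRoot i s) (η * t) := by
  obtain ⟨η, hη, h⟩ := n_conj (F := F) hD hi hs
  have h' : ∀ t : F, ne hD (D.simple i) 1 * xe hD s t * (ne hD (D.simple i) 1)⁻¹ =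
      xe hD (D.reflectRoot i s) (η * t) := fun t => Subtype.ext (h t)
  have hη0 : η ≠ 0 := by
    rcases hη with rfl | rfl
    · exact one_ne_zero
    · exact neg_ne_zero.2 one_ne_zero
  refine ⟨c ^ D.cartan i (D.reflectRoot i s) * η, mul_ne_zero (zpow_ne_zero _ hc) hη0, fun t => ?_⟩
  rw [ne_eq hD (D.simple i) c, mul_inv_rev]
  calc he hD (D.simple i) c * ne hD (D.simple i) 1 * xe hD s t *
        ((ne hD (D.simple i) 1)⁻¹ * (he hD (D.simple i) c)⁻¹)
      = he hD (D.simple i) c * (ne hD (D.simple i) 1 * xe hD s t * (ne hD (D.simple i) 1)⁻¹) *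
          (he hD (D.simple i) c)⁻¹ := by group
    _ = _ := by rw [h', he_conj hD hi (Reach.reflect_lt hD hi hs) hc, mul_assoc]

/-- an automorphism given on the fundamental roots is monomial -/
theorem mono_of_simple {φ : MulAut ↥(D.group F)} {π : Equiv.Perm (Fin D.rank)} {c : Fin D.rank → F}
    {σ : Fin D.rank → (F ≃+* F)} (hc : ∀ i, c i ≠ 0)
    (h1 : ∀ (i : Fin D.rank) (t : F), φ (xe hD (D.simple i) t) = xe hD (D.simple (π i)) (c i * σ i t))
    (h2 : ∀ (i : Fin D.rank) (t : F), φ (xe hD (D.neg (D.simple i)) t) = xe hD (D.neg (D.simple (π i))) ((c i)⁻¹ * σ i t))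
    {P : ℕ → ℕ} (hP : Ext D π P) : ∃ c' σ', Mono hD φ P c' σ' ∧ ∀ s < D.nroots, ∃ i, σ' s = σ i := by
  obtain ⟨hP1, hP2, hP3⟩ := hP
  have key : ∀ s < D.nroots, s < D.nroots ∧ ∃ (d : F) (i : Fin D.rank), d ≠ 0 ∧ ∀ t, φ (xe hD s t) = xe hD (P s) (d * σ i t) := by
    refine Reach.reach hD (fun s => s < D.nroots ∧ ∃ (d : F) (i : Fin D.rank), d ≠ 0 ∧
      ∀ t, φ (xe hD s t) = xe hD (P s) (d * σ i t)) ?_ ?_
    · intro i hi
      exact ⟨simple_lt hD hi, c ⟨i, hi⟩, ⟨i, hi⟩, hc _, fun t => by rw [hP1 ⟨i, hi⟩]; exact h1 ⟨i, hi⟩ t⟩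
    · rintro i hi s hs ⟨-, d, k, hd, h⟩
      refine ⟨Reach.reflect_lt hD hi hs, ?_⟩
      obtain ⟨η, hη, hn⟩ := n_conj (F := F) hD hi hs
      have hn' : ∀ t : F, ne hD (D.simple i) 1 * xe hD s t * (ne hD (D.simple i) 1)⁻¹ =
          xe hD (D.reflectRoot i s) (η * t) := fun t => Subtype.ext (hn t)
      have hη2 : η * η = 1 := by rcases hη with rfl | rfl <;> simp
      have hφn : φ (ne hD (D.simple i) 1) = ne hD (D.simple (π ⟨i, hi⟩)) (c ⟨i, hi⟩) := by
        have := Cfsg.Agent.H70.PermFix.map_ne hD (i := ⟨i, hi⟩) (h1 ⟨i, hi⟩) (h2 ⟨i, hi⟩) 1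
        rw [map_one, mul_one] at this
        exact this
      obtain ⟨ζ, hζ, hz⟩ := ne_conj (F := F) (hD := hD) (π ⟨i, hi⟩).2 (hP2 s hs) (hc ⟨i, hi⟩)
      refine ⟨ζ * d * σ k η, k, ?_, fun t => ?_⟩
      · refine mul_ne_zero (mul_ne_zero hζ hd) ((map_ne_zero _).2 ?_)
        intro h0
        rw [h0, zero_mul] at hη2
        exact zero_ne_one hη2
      · have h3 := hn' (η * t)
        rw [← mul_assoc, hη2, one_mul] at h3
        rw [← h3, map_mul, map_mul, map_inv, hφn, h, hz, hP3 ⟨i, hi⟩ s hs, map_mul]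
        congr 1
        ring
  have key' : ∀ s, ∃ (d : F) (τ : F ≃+* F), s < D.nroots → (d ≠ 0 ∧ ∃ i, τ = σ i) ∧ ∀ t, φ (xe hD s t) = xe hD (P s) (d * τ t) := by
    intro s
    by_cases hs : s < D.nroots
    · obtain ⟨-, d, i, hd, h⟩ := key s hs
      exact ⟨d, σ i, fun _ => ⟨⟨hd, i, rfl⟩, h⟩⟩
    · exact ⟨1, 1, fun h => absurd h hs⟩
  choose d τ h using key'
  exact ⟨d, τ, ⟨hP2, fun s hs => (h s hs).1.1, fun s hs => (h s hs).2⟩, fun s hs => (h s hs).1.2⟩

/-- **Steinberg's theorem.** -/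
theorem exists_perm_form (hD : InList D) [Finite F] (θ : MulAut ↥(D.group F)) :
    ∃ (g : ↥(D.group F)) (ψ : MulAut ↥(D.group F)) (π : Equiv.Perm (Fin D.rank)), θ = MulAut.conj g * ψ ∧ Perm D F ψ π := by
  obtain ⟨x, π, -, -, h1, h2⟩ := exists_conj_perm (F := F) hD θ
  exact ⟨x⁻¹, MulAut.conj x * θ, π, by rw [map_inv]; group, ⟨h1, h2⟩⟩

/-- an automorphism with `π = 1` -/
theorem mono_of_perm_one [Finite F] {ψ : MulAut ↥(D.group F)} (h : Perm D F ψ 1) :
    ∃ (χ : ℕ → Fˣ) (hχ : H70.ChevDiag.IsMul D χ) (τ : F ≃+* F), ψ = H70.ChevDiag.diagAut hD hχ * fl D τ := by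
  obtain ⟨c, σ, hc, h1, h2, h3⟩ := exists_field hD h
  obtain ⟨τ, hτ⟩ := sigma_eq hD (σ := σ) h3
  obtain ⟨χ, hχ, e1, e2⟩ := H70.ChevDiag.exists_diagAut (F := F) hD fun i => Units.mk0 (c i) (hc i)
  refine ⟨χ, hχ, τ, ext_values hD (fun i t => ?_) fun i t => ?_⟩
  · rw [MulAut.mul_apply, fl_xe, diagAut_xe, h1, e1, hτ]
    rfl
  · rw [MulAut.mul_apply, fl_xe, diagAut_xe, h2, e2, hτ]
    rfl

/-! ### torus elements -/

/-- the powers of a monomial automorphism without field part -/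
theorem Mono.iterate {x : MulAut ↥(D.group F)} {W : ℕ → ℕ} {c : ℕ → F} (h : Mono hD x W c fun _ => 1) (m : ℕ) :
    ∀ s < D.nroots, W^[m] s < D.nroots ∧ ∀ t, (x ^ m) (xe hD s t) =
      xe hD (W^[m] s) ((∏ l ∈ Finset.range m, c (W^[l] s)) * t) := by
  induction m with
  | zero =>
    intro s hs
    refine ⟨hs, fun t => ?_⟩
    rw [Finset.range_zero, Finset.prod_empty, one_mul]
    rfl
  | succ m ih =>
    intro s hs
    obtain ⟨h1, h2⟩ := ih s hs
    rw [Function.iterate_succ', Function.comp_apply]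
    refine ⟨h.lt _ h1, fun t => ?_⟩
    rw [pow_succ', MulAut.mul_apply, h2, h.eq _ h1, Finset.prod_range_succ]
    congr 1
    change c (W^[m] s) * ((∏ l ∈ Finset.range m, c (W^[l] s)) * t) = _
    ring

theorem zpow_sum (c : F) (h : c ≠ 0) {ι : Type*} (S : Finset ι) (e : ι → ℤ) :
    c ^ ∑ i ∈ S, e i = ∏ i ∈ S, c ^ e i := by
  classical
  induction S using Finset.induction_on with
  | empty => simp
  | insert i S hi ih => rw [Finset.sum_insert hi, Finset.prod_insert hi, zpow_add₀ h, ih]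

theorem exists_zpow {e : ℤ} (he : e = 1 ∨ e = -1) {u v : F} (hu : u ≠ 0) (hv : v ≠ 0) : ∃ c : F, c ≠ 0 ∧ u * c ^ e = v := by
  rcases he with rfl | rfl
  · exact ⟨v / u, div_ne_zero hv hu, by rw [zpow_one]; field_simp⟩
  · exact ⟨u / v, div_ne_zero hu hv, by rw [zpow_neg, zpow_one]; field_simp⟩

/-- **Prescribing the values at two roots.** -/
theorem exists_adjust {x₀ : MulAut ↥(D.group F)} {W₀ : ℕ → ℕ} {c₀ : ℕ → F} (hx : Mono hD x₀ W₀ c₀ fun _ => 1)
    {m : ℕ} (hm : ∀ s < D.nroots, W₀^[m] s = s) {a a' j j' : ℕ} (ha : a < D.nroots) (ha' : a' < D.nroots)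
    (hj : j < D.rank) (hj' : j' < D.rank)
    (e1 : ∑ l ∈ Finset.range m, D.cartan j (W₀^[l] a) = 1 ∨ ∑ l ∈ Finset.range m, D.cartan j (W₀^[l] a) = -1)
    (e2 : ∑ l ∈ Finset.range m, D.cartan j' (W₀^[l] a) = 0)
    (e3 : ∑ l ∈ Finset.range m, D.cartan j' (W₀^[l] a') = 1 ∨ ∑ l ∈ Finset.range m, D.cartan j' (W₀^[l] a') = -1)
    {k k' : F} (hk : k ≠ 0) (hk' : k' ≠ 0) :
    ∃ (g : ↥(D.group F)) (χ : ℕ → F), (∀ s < D.nroots, χ s ≠ 0 ∧
      ∀ t, ((x₀ * MulAut.conj g) ^ m) (xe hD s t) = xe hD s (χ s * t)) ∧ χ a = k ∧ χ a' = k' := by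
  let χ₀ : ℕ → F := fun s => ∏ l ∈ Finset.range m, c₀ (W₀^[l] s)
  have hlt : ∀ s < D.nroots, ∀ l, W₀^[l] s < D.nroots := fun s hs l => (hx.iterate l s hs).1
  have hχ₀ : ∀ s < D.nroots, χ₀ s ≠ 0 := fun s hs => Finset.prod_ne_zero_iff.2 fun l _ => hx.ne _ (hlt s hs l)
  obtain ⟨c, hc, hc1⟩ := exists_zpow e1 (hχ₀ a ha) hk
  obtain ⟨c', hc', hc1'⟩ := exists_zpow e3 (u := χ₀ a' * c ^ ∑ l ∈ Finset.range m, D.cartan j (W₀^[l] a'))
    (mul_ne_zero (hχ₀ a' ha') (zpow_ne_zero _ hc)) hk'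
  have h1 : Mono hD (x₀ * MulAut.conj (he hD (D.simple j) c * he hD (D.simple j') c')) W₀
      (fun s => c₀ s * (c ^ D.cartan j s * c' ^ D.cartan j' s)) fun _ => 1 := by
    rw [map_mul]
    refine (hx.mul ((mono_he hj hc).mul (mono_he hj' hc'))).congr (fun _ _ => rfl) (fun s _ => ?_) fun _ _ => ?_
    · rfl
    · rfl
  refine ⟨he hD (D.simple j) c * he hD (D.simple j') c', fun s => χ₀ s * c ^ (∑ l ∈ Finset.range m, D.cartan j (W₀^[l] s)) *
    c' ^ (∑ l ∈ Finset.range m, D.cartan j' (W₀^[l] s)), fun s hs => ⟨?_, fun t => ?_⟩, ?_, hc1'⟩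
  · exact mul_ne_zero (mul_ne_zero (hχ₀ s hs) (zpow_ne_zero _ hc)) (zpow_ne_zero _ hc')
  · rw [(h1.iterate m s hs).2, hm s hs, Finset.prod_mul_distrib, Finset.prod_mul_distrib, ← zpow_sum c hc,
      ← zpow_sum c' hc', ← mul_assoc]
  · change χ₀ a * _ * c' ^ (∑ l ∈ Finset.range m, D.cartan j' (W₀^[l] a)) = k
    rw [e2, zpow_zero, mul_one, hc1]

/-! ### the torus trick -/

/-- the subgroup of `D.group F` of the elements whose inner automorphism is in `M` -/
def ofM (M : Subgroup (MulAut ↥(D.group F))) : Subgroup (GL D.Idx F) := (M.comap MulAut.conj).map (D.group F).subtype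

theorem has_iff {M : Subgroup (MulAut ↥(D.group F))} {r : ℕ} : Has hD (ofM M) r ↔ ∀ t, MulAut.conj (xe hD r t) ∈ M := by
  constructor
  · intro h t
    obtain ⟨g, hg, he⟩ := h t
    have : g = xe hD r t := Subtype.ext he
    rw [← this]
    exact hg
  · intro h t
    exact ⟨xe hD r t, h t, rfl⟩

theorem conj_conj (v : MulAut ↥(D.group F)) (g : ↥(D.group F)) : v * MulAut.conj g * v⁻¹ = MulAut.conj (v g) := by
  ext s
  simp [MulAut.mul_apply, MulAut.conj_apply]

theorem conj_conj' (v : MulAut ↥(D.group F)) (g : ↥(D.group F)) : v⁻¹ * MulAut.conj g * v = MulAut.conj (v⁻¹ g) := by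
  have := conj_conj v⁻¹ g
  rwa [inv_inv] at this

/-- **The torus trick.** -/
theorem core {M : Subgroup (MulAut ↥(D.group F))} {h v : MulAut ↥(D.group F)} {χ : ℕ → F}
    (hh : ∀ s < D.nroots, χ s ≠ 0 ∧ ∀ t, h (xe hD s t) = xe hD s (χ s * t)) {W : ℕ → ℕ} {c : ℕ → F}
    {σ : ℕ → (F ≃+* F)} (hv : Mono hD v W c σ) (hW : ∀ s < D.nroots, ∃ s' < D.nroots, W s' = s) (hM : h ∈ M)
    {a a' : ℕ} (hy : MulAut.conj (xe hD a 1) * v ∈ M) (ha : a < D.nroots) (ha' : a' < D.nroots) (e : W a' = a)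
    (hirr : ∀ Y : AddSubgroup F, (∀ t ∈ Y, χ a * t ∈ Y) → Y = ⊥ ∨ Y = ⊤) (h1 : χ a ≠ 1) (h1' : χ a' ≠ 1) :
    Has hD (ofM M) a ∧ v ∈ M := by
  -- the conjugate of `h`
  have hv' : ∀ s < D.nroots, ∀ t, v⁻¹ (xe hD (W s) t) = xe hD s ((σ s).symm ((c s)⁻¹ * t)) := by
    intro s hs t
    apply v.injective
    rw [MulAut.apply_inv_self, hv.eq s hs, RingEquiv.apply_symm_apply, ← mul_assoc, mul_inv_cancel₀ (hv.ne s hs),
      one_mul]
  have hh1 : ∀ s < D.nroots, ∀ t, (v * h * v⁻¹) (xe hD (W s) t) = xe hD (W s) (σ s (χ s) * t) := by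
    intro s hs t
    rw [MulAut.mul_apply, MulAut.mul_apply, hv' s hs, (hh s hs).2, hv.eq s hs, map_mul, RingEquiv.apply_symm_apply]
    congr 1
    have := hv.ne s hs
    field_simp
  have hcomm : h * (v * h * v⁻¹) = (v * h * v⁻¹) * h := by
    apply ext_xe (hD := hD)
    intro s hs t
    obtain ⟨s', hs', rfl⟩ := hW s hs
    change h ((v * h * v⁻¹) (xe hD (W s') t)) = (v * h * v⁻¹) (h (xe hD (W s') t))
    rw [hh1 s' hs', (hh _ hs).2, (hh _ hs).2, hh1 s' hs', mul_left_comm]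
  have hinv : ∀ s < D.nroots, ∀ t, (v * h * v⁻¹)⁻¹ (xe hD (W s) t) = xe hD (W s) ((σ s (χ s))⁻¹ * t) := by
    intro s hs t
    apply (v * h * v⁻¹).injective
    rw [MulAut.apply_inv_self, hh1 s hs, ← mul_assoc, mul_inv_cancel₀ ((map_ne_zero _).2 (hh s hs).1), one_mul]
  let X : Subgroup (MulAut ↥(D.group F)) := (XX D F a).map MulAut.conj
  have hX : ∀ {y}, y ∈ X ↔ ∃ t, MulAut.conj (xe hD a t) = y := by
    intro y
    constructor
    · rintro ⟨g, hg, rfl⟩
      obtain ⟨t, rfl⟩ := (mem_XX hD).1 hg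
      exact ⟨t, rfl⟩
    · rintro ⟨t, rfl⟩
      exact ⟨_, xe_mem_XX hD a t, rfl⟩
  have hinj := conj_injective (F := F) hD
  suffices H : X ≤ M ∧ v ∈ M from ⟨has_iff.2 fun t => H.1 (hX.2 ⟨t, rfl⟩), H.2⟩
  refine Cfsg.Agent.H136.TwoGen.torus_trick M X (h := h) (w := v) (u := MulAut.conj (xe hD a 1)) hM hy
    (hX.2 ⟨1, rfl⟩) ?_ ?_ ?_ ?_ ?_ hcomm ?_
  · intro x hx
    obtain ⟨t, rfl⟩ := hX.1 hx
    rw [conj_conj, ← e, hh1 a' ha', e]
    exact hX.2 ⟨_, rfl⟩
  · intro x hx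
    obtain ⟨t, rfl⟩ := hX.1 hx
    rw [conj_conj', ← e, hinv a' ha', e]
    exact hX.2 ⟨_, rfl⟩
  · intro Y hYX hY
    let C : AddSubgroup F :=
      { carrier := {t | MulAut.conj (xe hD a t) ∈ Y}
        zero_mem' := by
          change MulAut.conj (xe hD a 0) ∈ Y
          rw [xe_zero, map_one]
          exact one_mem _
        add_mem' := by
          intro s t hs ht
          change MulAut.conj (xe hD a (s + t)) ∈ Y
          rw [xe_add, map_mul]
          exact mul_mem hs ht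
        neg_mem' := by
          intro s hs
          change MulAut.conj (xe hD a (-s)) ∈ Y
          rw [xe_neg, map_inv]
          exact inv_mem hs }
    have hC : ∀ t, t ∈ C ↔ MulAut.conj (xe hD a t) ∈ Y := fun _ => Iff.rfl
    rcases hirr C (fun t ht => by
      rw [hC] at ht ⊢
      have := hY _ ht
      rwa [conj_conj, (hh a ha).2] at this) with h5 | h5
    · left
      rw [eq_bot_iff]
      intro y hy
      obtain ⟨t, rfl⟩ := hX.1 (hYX hy)
      have h6 : t ∈ C := hy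
      rw [h5, AddSubgroup.mem_bot] at h6
      rw [h6, xe_zero, map_one]
      exact one_mem _
    · right
      refine le_antisymm hYX fun y hy => ?_
      obtain ⟨t, rfl⟩ := hX.1 hy
      have h6 : t ∈ C := by rw [h5]; exact AddSubgroup.mem_top t
      exact h6
  · refine ⟨MulAut.conj (xe hD a 1), hX.2 ⟨1, rfl⟩, fun h6 => ?_⟩
    have h7 := conj_conj h (xe hD a 1)
    rw [h6, mul_inv_cancel_right, (hh a ha).2, mul_one] at h7
    exact h1 (xe_inj hD ha (hinj h7)).symm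
  · intro x hx
    obtain ⟨t, rfl⟩ := hX.1 hx
    rw [conj_conj, (hh a ha).2]
    exact hX.2 ⟨_, rfl⟩
  · intro h6
    have h7 := conj_conj (v * h * v⁻¹) (xe hD a 1)
    rw [h6, mul_inv_cancel_right, ← e, hh1 a' ha', e, mul_one] at h7
    have h8 := xe_inj hD ha (hinj h7)
    exact h1' ((σ a').injective (h8.symm.trans (map_one _).symm))

/-! ### closure -/

theorem has_rot {M : Subgroup (MulAut ↥(D.group F))} {v : MulAut ↥(D.group F)} {W : ℕ → ℕ} {c : ℕ → F}
    {σ : ℕ → (F ≃+* F)} (hv : Mono hD v W c σ) (hM : v ∈ M) {s : ℕ} (hs : s < D.nroots) (h : Has hD (ofM M) s) :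
    Has hD (ofM M) (W s) := by
  rw [has_iff] at h ⊢
  intro t
  have h1 := M.mul_mem (M.mul_mem hM (h ((σ s).symm ((c s)⁻¹ * t)))) (M.inv_mem hM)
  rwa [conj_conj, hv.eq s hs, RingEquiv.apply_symm_apply, ← mul_assoc, mul_inv_cancel₀ (hv.ne s hs), one_mul] at h1

theorem step_sound' {M : Subgroup (GL D.Idx F)} {W : ℕ → ℕ} (hrot : ∀ s < D.nroots, Has hD M s → Has hD M (W s))
    {S : ℕ} (hS : ∀ k, Nat.testBit S k = true → Has hD M k) (p : ℕ × ℕ) :
    ∀ k, Nat.testBit (step D W S p) k = true → Has hD M k := by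
  intro k hk
  unfold step at hk
  split_ifs at hk with h1 h2 h3
  · rcases testBit_insert hk with h | rfl
    · exact hS k h
    · exact hrot _ h2.2 (hS _ h2.1)
  · exact hS k hk
  · obtain ⟨ha, hb, hr, hs, hneg⟩ := h3
    split at hk
    · rename_i e he
      split_ifs at hk with hg
      · rcases testBit_insert hk with h | rfl
        · exact hS k h
        · intro v
          obtain ⟨t, u, rfl⟩ := good_spec (F := F) hg v
          have hm := comm_mem hD hr hs (Ne.symm h1) hneg (t := t) (u := u) (hS _ ha t) (hS _ hb u)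
          exact mem_of_filter hD (P := fun k => Nat.testBit S k) hS
            (fun c : ℤ × ℕ × ℕ => (c.1 : F) * (-t) ^ c.2.1 * u ^ c.2.2) _ he hm
      · exact hS k hk
    · exact hS k hk
  · exact hS k hk

theorem run_sound' {M : Subgroup (GL D.Idx F)} {W : ℕ → ℕ} (hrot : ∀ s < D.nroots, Has hD M s → Has hD M (W s))
    (steps : List (ℕ × ℕ)) : ∀ {S : ℕ} (_ : ∀ k, Nat.testBit S k = true → Has hD M k),
    ∀ k, Nat.testBit (run D W S steps) k = true → Has hD M k := by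
  induction steps with
  | nil => intro S hS; exact hS
  | cons p steps ih =>
    intro S hS
    exact ih (step_sound' hrot hS p)

/-- **The closure computation.** -/
theorem inn_le_of_run {M : Subgroup (MulAut ↥(D.group F))} {v : MulAut ↥(D.group F)} {W : ℕ → ℕ} {c : ℕ → F}
    {σ : ℕ → (F ≃+* F)} (hv : Mono hD v W c σ) (hM : v ∈ M) {S : ℕ}
    (hS : ∀ k, Nat.testBit S k = true → Has hD (ofM M) k) {steps : List (ℕ × ℕ)}
    (h : run D W S steps = 2 ^ D.nroots - 1) : (MulAut.conj : ↥(D.group F) →* MulAut ↥(D.group F)).range ≤ M := by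
  have h1 : D.group F ≤ ofM M := by
    rw [group_le_iff hD]
    intro r hr
    refine run_sound' (fun s hs => has_rot hv hM hs) steps hS r ?_
    rw [h, Nat.testBit_two_pow_sub_one]
    exact decide_eq_true hr
  rintro _ ⟨g, rfl⟩
  obtain ⟨g', hg', he⟩ := h1 g.2
  have : g' = g := Subtype.ext he
  rw [← this]
  exact hg'

end Cfsg.Agent.H134.Cos
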