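import Cfsg.Agent.H134.Cos.Core

/-!
# Generating pairs in cosets of `Inn T`, `T = D.group F`: the pair theorems (helper134, for S4180)

* `lift_of_cyclic` : it is enough to treat the pairs `(x, y)` with `φ x = 1`, `φ` a homomorphism to a cyclic group;
* `lift_one` : one root, any cosets (fields with at least three elements);
* `lift_two` : two roots, `x` inner; `lift_two'` : the same with a given torus element in the coset of `x`;
* `lift_F2` : the field with two elements, `x` inner;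
* `KK`, `cyclic_of_full` : the automorphisms without field part.
-/

set_option autoImplicit false
set_option linter.unusedSectionVars false

namespace Cfsg.Agent.H134.Cos

open scoped Pointwise
open Cfsg Cfsg.Lie Cfsg.Agent.ChevalleyStructure Cfsg.Agent.ChevalleyStructure.Elts
  Cfsg.Agent.ChevalleyStructure.NConj Cfsg.Agent.ChevalleyStructure.BNChev Cfsg.Agent.S1042
  Cfsg.Agent.Schreier.ChevLocal Cfsg.Agent.H70.AutFix Cfsg.Agent.H70.ChevTab Cfsg.Agent.H70.ChevFix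
  Cfsg.Agent.H70.ChevField Cfsg.Agent.H70.OutCount Cfsg.Agent.H135.TwoG
open Cfsg.Agent.H891.Gen (Lift)

universe u

/-! ### generalities -/

section gen

variable {G : Type*} [Group G] {N : Subgroup G}

/-- `Lift` depends only on the cosets -/
theorem lift_congr {x y x' y' : G} (hx : x⁻¹ * x' ∈ N) (hy : y⁻¹ * y' ∈ N) (h : Lift N x' y') : Lift N x y := by
  obtain ⟨s, hs, t, ht, h⟩ := h
  refine ⟨x⁻¹ * x' * s, N.mul_mem hx hs, y⁻¹ * y' * t, N.mul_mem hy ht, ?_⟩
  have e1 : x * (x⁻¹ * x' * s) = x' * s := by group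
  have e2 : y * (y⁻¹ * y' * t) = y' * t := by group
  rw [e1, e2]
  exact h

theorem lift_of {x y x' y' : G} (hx : x⁻¹ * x' ∈ N) (hy : y⁻¹ * y' ∈ N) (h : N ≤ Subgroup.closure {x', y'}) :
    Lift N x y :=
  lift_congr hx hy ⟨1, one_mem _, 1, one_mem _, by rwa [mul_one, mul_one]⟩

/-- a Nielsen move -/
theorem lift_mul [N.Normal] {x y : G} (h : Lift N x (x⁻¹ * y)) : Lift N x y := by
  obtain ⟨s, hs, t, ht, h⟩ := h
  refine ⟨s, hs, y⁻¹ * (x * s) * (x⁻¹ * y * t), ?_, ?_⟩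
  · have e : y⁻¹ * (x * s) * (x⁻¹ * y * t) = (y⁻¹ * x) * s * (y⁻¹ * x)⁻¹ * t := by group
    rw [e]
    exact N.mul_mem (‹N.Normal›.conj_mem s hs _) ht
  · have e : y * (y⁻¹ * (x * s) * (x⁻¹ * y * t)) = (x * s) * (x⁻¹ * y * t) := by group
    rw [e]
    refine h.trans ?_
    rw [Subgroup.closure_le]
    rintro z (rfl | rfl)
    · exact Subgroup.subset_closure (by simp)
    · have h1 : x * s ∈ Subgroup.closure {x * s, (x * s) * (x⁻¹ * y * t)} := Subgroup.subset_closure (by simp)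
      have h2 : (x * s) * (x⁻¹ * y * t) ∈ Subgroup.closure {x * s, (x * s) * (x⁻¹ * y * t)} :=
        Subgroup.subset_closure (by simp)
      have h3 := mul_mem (inv_mem h1) h2
      rwa [inv_mul_cancel_left] at h3

/-- **Nielsen reduction.** -/
theorem lift_of_cyclic [N.Normal] {C : Type*} [Group C] [Finite C] [IsCyclic C] (φ : G →* C)
    (h : ∀ x y, φ x = 1 → Lift N x y) (x y : G) : Lift N x y := by
  obtain ⟨c, hc⟩ := IsCyclic.exists_generator (α := C)
  have key : ∀ n i j : ℕ, i + j ≤ n → ∀ x y, φ x = c ^ i → φ y = c ^ j → Lift N x y := by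
    intro n
    induction n with
    | zero =>
      intro i j hij x y hx _
      apply h
      rw [hx, show i = 0 by omega, pow_zero]
    | succ n ih =>
      intro i j hij x y hx hy
      rcases Nat.eq_zero_or_pos i with hi | hi
      · apply h
        rw [hx, hi, pow_zero]
      rcases Nat.eq_zero_or_pos j with hj | hj
      · apply Cfsg.Agent.H891.Gen.Lift.symm
        apply h
        rw [hy, hj, pow_zero]
      rcases le_total i j with hle | hle
      · apply lift_mul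
        refine ih i (j - i) (by omega) x _ hx ?_
        rw [map_mul, map_inv, hx, hy, pow_sub c hle, (Commute.pow_pow_self c j i).inv_right.eq]
      · apply Cfsg.Agent.H891.Gen.Lift.symm
        apply lift_mul
        refine ih j (i - j) (by omega) y _ hy ?_
        rw [map_mul, map_inv, hx, hy, pow_sub c hle, (Commute.pow_pow_self c i j).inv_right.eq]
  have hpow : ∀ u : C, ∃ i : ℕ, u = c ^ i := by
    intro u
    obtain ⟨i, hi⟩ := mem_powers_iff_mem_zpowers.2 (hc u)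
    exact ⟨i, hi.symm⟩
  obtain ⟨i, hi⟩ := hpow (φ x)
  obtain ⟨j, hj⟩ := hpow (φ y)
  exact key (i + j) i j le_rfl x y hi hj

end gen

variable {D : ChevalleyDatum} {hD : InList D} {F : Type u} [Field F]

/-- the inner automorphisms -/
abbrev NI (D : ChevalleyDatum) (F : Type u) [Field F] : Subgroup (MulAut ↥(D.group F)) :=
  (MulAut.conj : ↥(D.group F) →* MulAut ↥(D.group F)).range

instance instNormalNI (D : ChevalleyDatum) (F : Type u) [Field F] : (NI D F).Normal where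
  conj_mem := by
    rintro _ ⟨g, rfl⟩ φ
    exact ⟨φ g, (conj_conj φ g).symm⟩

theorem inv_mul_conj_mul (ψ : MulAut ↥(D.group F)) (g : ↥(D.group F)) : ψ⁻¹ * (MulAut.conj g * ψ) ∈ NI D F := by
  rw [← mul_assoc, conj_conj']
  exact ⟨_, rfl⟩

/-- a subgroup of `F` stable under a generator of the multiplicative group (or its inverse, or its square) -/
theorem irr_of_gen [Finite F] {k : Fˣ} (hk : ∀ x : Fˣ, x ∈ Subgroup.zpowers k) {u : F} {e : ℤ}
    (he : e = 1 ∨ e = -1 ∨ e = 2 ∨ e = -2) (hu : u = (k : F) ^ e) (Y : AddSubgroup F) (hY : ∀ t ∈ Y, u * t ∈ Y) :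
    Y = ⊥ ∨ Y = ⊤ := by
  have hk' : ∀ x : Fˣ, x ∈ Subgroup.zpowers k⁻¹ := by
    intro x
    rw [Subgroup.zpowers_inv]
    exact hk x
  rcases he with rfl | rfl | rfl | rfl
  · apply Cfsg.Agent.H136.FieldLem.eq_bot_or_top hk
    intro t ht
    have h2 := hY _ (hY _ ht)
    rwa [hu, zpow_one, ← mul_assoc, ← sq] at h2
  · apply Cfsg.Agent.H136.FieldLem.eq_bot_or_top hk'
    intro t ht
    have h2 := hY _ (hY _ ht)
    rwa [hu, zpow_neg, zpow_one, ← mul_assoc, ← sq, ← Units.val_inv_eq_inv_val] at h2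
  · apply Cfsg.Agent.H136.FieldLem.eq_bot_or_top hk
    intro t ht
    have h2 := hY _ ht
    rw [hu] at h2
    exact_mod_cast h2
  · apply Cfsg.Agent.H136.FieldLem.eq_bot_or_top hk'
    intro t ht
    have h2 := hY _ ht
    rw [hu, zpow_neg] at h2
    rw [Units.val_inv_eq_inv_val, inv_pow]
    exact_mod_cast h2

theorem gen_ne_one (hq : ∃ x : F, x ≠ 0 ∧ x ≠ 1) {k : Fˣ} (hk : ∀ x : Fˣ, x ∈ Subgroup.zpowers k) : (k : F) ≠ 1 := by
  intro h0
  obtain ⟨x, hx0, hx1⟩ := hq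
  have hk' : k = 1 := Units.ext h0
  obtain ⟨n, hn⟩ := hk (Units.mk0 x hx0)
  have hn' : k ^ n = Units.mk0 x hx0 := hn
  rw [hk', one_zpow] at hn'
  have := congrArg Units.val hn'
  exact hx1 this.symm

/-- **One root, any cosets.** -/
theorem lift_one [Finite F] (hq : ∃ x : F, x ≠ 0 ∧ x ≠ 1) {ξ ψ : MulAut ↥(D.group F)} {W₀ : ℕ → ℕ} {c₀ : ℕ → F}
    (hξ : Mono hD ξ W₀ c₀ fun _ => 1) {P : ℕ → ℕ} {c : ℕ → F} {σ : ℕ → (F ≃+* F)} (hψ : Mono hD ψ P c σ)
    {m : ℕ} (hm : ∀ s < D.nroots, W₀^[m] s = s) {l : List ℕ} (hl : ∀ i ∈ l, i < D.rank) {W : ℕ → ℕ}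
    (hW : ∀ s < D.nroots, W s = wact D l (P s)) (hW' : ∀ s < D.nroots, ∃ s' < D.nroots, W s' = s)
    {a a' j j' : ℕ} (ha : a < D.nroots) (ha' : a' < D.nroots) (haa : W a' = a) (hj : j < D.rank) (hj' : j' < D.rank)
    (e1 : ∑ l ∈ Finset.range m, D.cartan j (W₀^[l] a) = 1 ∨ ∑ l ∈ Finset.range m, D.cartan j (W₀^[l] a) = -1)
    (e2 : ∑ l ∈ Finset.range m, D.cartan j' (W₀^[l] a) = 0)
    (e3 : ∑ l ∈ Finset.range m, D.cartan j' (W₀^[l] a') = 1 ∨ ∑ l ∈ Finset.range m, D.cartan j' (W₀^[l] a') = -1)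
    {steps : List (ℕ × ℕ)} (hrun : run D W (1 <<< a) steps = 2 ^ D.nroots - 1) : Lift (NI D F) ξ ψ := by
  obtain ⟨k, hk⟩ := IsCyclic.exists_generator (α := Fˣ)
  have hk1 := gen_ne_one hq hk
  obtain ⟨g, χ, hχ, hχa, hχa'⟩ := exists_adjust hξ hm ha ha' hj hj' e1 e2 e3 k.ne_zero k.ne_zero
  obtain ⟨c', hc'⟩ := mono_we (F := F) (hD := hD) hl
  set v := MulAut.conj (we hD F l) * ψ with hv
  have hvm : Mono hD v W (fun s => c' (P s) * (1 : F ≃+* F) (c s)) fun s => 1 * σ s :=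
    (hc'.mul hψ).congr (fun s hs => hW s hs) (fun _ _ => rfl) fun _ _ => rfl
  apply lift_of (x' := ξ * MulAut.conj g) (y' := MulAut.conj (xe hD a 1) * v)
  · exact ⟨g, by group⟩
  · have e : MulAut.conj (xe hD a 1) * v = MulAut.conj (xe hD a 1 * we hD F l) * ψ := by
      rw [hv, map_mul, mul_assoc]
    rw [e]
    exact inv_mul_conj_mul _ _
  · set M := Subgroup.closure {ξ * MulAut.conj g, MulAut.conj (xe hD a 1) * v} with hM
    have m1 : (ξ * MulAut.conj g) ^ m ∈ M := M.pow_mem (Subgroup.subset_closure (by simp)) m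
    have m2 : MulAut.conj (xe hD a 1) * v ∈ M := Subgroup.subset_closure (by simp)
    obtain ⟨h1, h2⟩ := core hχ hvm hW' m1 m2 ha ha' haa
      (irr_of_gen hk (e := 1) (Or.inl rfl) (by rw [hχa, zpow_one])) (by rw [hχa]; exact hk1) (by rw [hχa']; exact hk1)
    refine inn_le_of_run hvm h2 (S := 1 <<< a) ?_ hrun
    intro r hr
    rw [Nat.one_shiftLeft, Nat.testBit_two_pow] at hr
    have : a = r := by simpa using hr
    exact this ▸ h1

/-! ### two roots -/

/-- `h x_b(1) ∈ M` with `χ_h(b) = 1` -/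
theorem split [Finite F] {M : Subgroup (MulAut ↥(D.group F))} {h : MulAut ↥(D.group F)} {χ : ℕ → F}
    (hh : ∀ s < D.nroots, χ s ≠ 0 ∧ ∀ t, h (xe hD s t) = xe hD s (χ s * t)) {b : ℕ} (hb : b < D.nroots) (hχb : χ b = 1)
    (hM : h * MulAut.conj (xe hD b 1) ∈ M) : h ∈ M ∧ MulAut.conj (xe hD b 1) ∈ M := by
  obtain ⟨p, hp⟩ := CharP.exists F
  have hpp : Nat.Prime p := (CharP.char_is_prime_or_zero F p).resolve_right (CharP.char_ne_zero_of_finite F p)
  have hcomm : Commute h (MulAut.conj (xe hD b 1)) := by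
    have := conj_conj h (xe hD b 1)
    rw [(hh b hb).2, hχb, one_mul, mul_inv_eq_iff_eq_mul] at this
    exact this
  have hN : h ^ Nat.card Fˣ = 1 := by
    apply ext_xe (hD := hD)
    intro s hs t
    have h1 : ∀ n : ℕ, (h ^ n) (xe hD s t) = xe hD s (χ s ^ n * t) := by
      intro n
      induction n with
      | zero => rw [pow_zero, pow_zero, one_mul]; rfl
      | succ n ih => rw [pow_succ', MulAut.mul_apply, ih, (hh s hs).2, pow_succ', mul_assoc]
    have h2 : χ s ^ Nat.card Fˣ = 1 := by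
      have := congrArg Units.val (pow_card_eq_one' (x := Units.mk0 (χ s) (hh s hs).1))
      rwa [Units.val_pow_eq_pow_val, Units.val_mk0, Units.val_one] at this
    rw [h1, h2, one_mul]
    rfl
  have hxp : (MulAut.conj (xe hD b (1 : F))) ^ p = 1 := by
    have h : ∀ n : ℕ, (xe hD b (1 : F)) ^ n = xe hD b (n : F) := by
      intro n
      induction n with
      | zero => rw [pow_zero, Nat.cast_zero, xe_zero]
      | succ n ih => rw [pow_succ, ih, ← xe_add, Nat.cast_succ]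
    rw [← map_pow, h, CharP.cast_eq_zero, xe_zero, map_one]
  have hco : Nat.Coprime (Nat.card Fˣ) p := by
    have : Fintype F := Fintype.ofFinite F
    rw [Nat.card_units, Nat.card_eq_fintype_card]
    have h3 : p ∣ Fintype.card F := (CharP.cast_eq_zero_iff F p _).1 (Nat.cast_card_eq_zero F)
    have h4 : 0 < Fintype.card F := Fintype.card_pos
    refine Nat.Coprime.symm ((Nat.Prime.coprime_iff_not_dvd hpp).2 fun h5 => ?_)
    have h6 : p ∣ 1 := by
      have := Nat.dvd_sub h3 h5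
      have e : Fintype.card F - (Fintype.card F - 1) = 1 := by omega
      rwa [e] at this
    exact hpp.one_lt.ne' (Nat.dvd_one.1 h6)
  exact mem_of_coprime hcomm hN hxp hco hM

/-- a nontrivial element of a root group is enough -/
theorem has_of_mem {M : Subgroup (MulAut ↥(D.group F))} {h : MulAut ↥(D.group F)} {b : ℕ} {u χb : F} (hu : u ≠ 0)
    (hhb : ∀ t, h (xe hD b t) = xe hD b (χb * t)) (hM : h ∈ M) (hm : MulAut.conj (xe hD b u) ∈ M)
    (hirr : ∀ Y : AddSubgroup F, (∀ t ∈ Y, χb * t ∈ Y) → Y = ⊥ ∨ Y = ⊤) : Has hD (ofM M) b := by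
  let C : AddSubgroup F :=
    { carrier := {t | MulAut.conj (xe hD b t) ∈ M}
      zero_mem' := by
        change MulAut.conj (xe hD b 0) ∈ M
        rw [xe_zero, map_one]
        exact one_mem _
      add_mem' := by
        intro s t hs ht
        change MulAut.conj (xe hD b (s + t)) ∈ M
        rw [xe_add, map_mul]
        exact mul_mem hs ht
      neg_mem' := by
        intro s hs
        change MulAut.conj (xe hD b (-s)) ∈ M
        rw [xe_neg, map_inv]
        exact inv_mem hs }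
  rw [has_iff]
  rcases hirr C (fun t ht => by
    change MulAut.conj (xe hD b (χb * t)) ∈ M
    rw [← hhb, ← conj_conj]
    exact M.mul_mem (M.mul_mem hM ht) (M.inv_mem hM)) with h5 | h5
  · exfalso
    have h6 : u ∈ C := hm
    rw [h5, AddSubgroup.mem_bot] at h6
    exact hu h6
  · intro t
    have h6 : t ∈ C := by rw [h5]; exact AddSubgroup.mem_top t
    exact h6

/-- **Two roots, a given torus element.** -/
theorem lift_two' [Finite F] {ξ ψ : MulAut ↥(D.group F)} {χ : ℕ → F}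
    (hh : ∀ s < D.nroots, χ s ≠ 0 ∧ ∀ t, ξ (xe hD s t) = xe hD s (χ s * t)) {P : ℕ → ℕ} {c : ℕ → F}
    {σ : ℕ → (F ≃+* F)} (hψ : Mono hD ψ P c σ) {l : List ℕ} (hl : ∀ i ∈ l, i < D.rank) {W : ℕ → ℕ}
    (hW : ∀ s < D.nroots, W s = wact D l (P s)) (hW' : ∀ s < D.nroots, ∃ s' < D.nroots, W s' = s)
    {a a' b b' : ℕ} (ha : a < D.nroots) (ha' : a' < D.nroots) (haa : W a' = a) (hb : b < D.nroots)
    (hb' : b' < D.nroots) (hbb : W b' = b)
    (ia : ∀ Y : AddSubgroup F, (∀ t ∈ Y, χ a * t ∈ Y) → Y = ⊥ ∨ Y = ⊤) (h1 : χ a ≠ 1) (h1' : χ a' ≠ 1)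
    (hχb : χ b = 1) (ib : ∀ Y : AddSubgroup F, (∀ t ∈ Y, χ b' * t ∈ Y) → Y = ⊥ ∨ Y = ⊤)
    {steps : List (ℕ × ℕ)} (hrun : run D W ((1 <<< a) ||| (1 <<< b')) steps = 2 ^ D.nroots - 1) :
    Lift (NI D F) ξ ψ := by
  obtain ⟨c', hc'⟩ := mono_we (F := F) (hD := hD) hl
  set v := MulAut.conj (we hD F l) * ψ with hv
  have hvm : Mono hD v W (fun s => c' (P s) * (1 : F ≃+* F) (c s)) fun s => 1 * σ s :=
    (hc'.mul hψ).congr (fun s hs => hW s hs) (fun _ _ => rfl) fun _ _ => rfl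
  apply lift_of (x' := ξ * MulAut.conj (xe hD b 1)) (y' := MulAut.conj (xe hD a 1) * v)
  · exact ⟨xe hD b 1, by group⟩
  · have e : MulAut.conj (xe hD a 1) * v = MulAut.conj (xe hD a 1 * we hD F l) * ψ := by
      rw [hv, map_mul, mul_assoc]
    rw [e]
    exact inv_mul_conj_mul _ _
  · set M := Subgroup.closure {ξ * MulAut.conj (xe hD b 1), MulAut.conj (xe hD a 1) * v} with hM
    have m1 : ξ * MulAut.conj (xe hD b 1) ∈ M := Subgroup.subset_closure (by simp)
    have m2 : MulAut.conj (xe hD a 1) * v ∈ M := Subgroup.subset_closure (by simp)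
    obtain ⟨m3, m4⟩ := split hh hb hχb m1
    obtain ⟨h5, h6⟩ := core hh hvm hW' m3 m2 ha ha' haa ia h1 h1'
    have h7 : Has hD (ofM M) b' := by
      obtain ⟨u, hu, h8⟩ : ∃ u : F, u ≠ 0 ∧ v (xe hD b' u) = xe hD b 1 := by
        have h9 := hvm.ne b' hb'
        refine ⟨(((1 : F ≃+* F) * σ b').symm ((c' (P b') * (1 : F ≃+* F) (c b'))⁻¹)), ?_, ?_⟩
        · rw [Ne, EmbeddingLike.map_eq_zero_iff]
          exact inv_ne_zero h9
        · rw [hvm.eq b' hb', hbb, RingEquiv.apply_symm_apply, mul_inv_cancel₀ h9]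
      refine has_of_mem hu (hh b' hb').2 m3 ?_ ib
      have h9 := M.mul_mem (M.mul_mem (M.inv_mem h6) m4) h6
      rw [conj_conj', ← h8, MulAut.inv_apply_self] at h9
      exact h9
    refine inn_le_of_run hvm h6 (S := (1 <<< a) ||| (1 <<< b')) ?_ hrun
    intro k hk
    rcases testBit_insert hk with h | rfl
    · rw [Nat.one_shiftLeft, Nat.testBit_two_pow] at h
      have : a = k := by simpa using h
      exact this ▸ h5
    · exact h7

/-- **Two roots, `x` inner.** -/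
theorem lift_two [Finite F] (hq : ∃ x : F, x ≠ 0 ∧ x ≠ 1) {ψ : MulAut ↥(D.group F)} {P : ℕ → ℕ} {c : ℕ → F}
    {σ : ℕ → (F ≃+* F)} (hψ : Mono hD ψ P c σ) {l : List ℕ} (hl : ∀ i ∈ l, i < D.rank) {W : ℕ → ℕ}
    (hW : ∀ s < D.nroots, W s = wact D l (P s)) (hW' : ∀ s < D.nroots, ∃ s' < D.nroots, W s' = s)
    {i a a' b b' : ℕ} (hi : i < D.rank) (ha : a < D.nroots) (ha' : a' < D.nroots) (haa : W a' = a)
    (hb : b < D.nroots) (hb' : b' < D.nroots) (hbb : W b' = b)
    (c1 : D.cartan i a = 1 ∨ D.cartan i a = -1) (c2 : D.cartan i a' = 1 ∨ D.cartan i a' = -1) (c3 : D.cartan i b = 0)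
    (c4 : D.cartan i b' = 1 ∨ D.cartan i b' = -1 ∨ D.cartan i b' = 2 ∨ D.cartan i b' = -2)
    {steps : List (ℕ × ℕ)} (hrun : run D W ((1 <<< a) ||| (1 <<< b')) steps = 2 ^ D.nroots - 1)
    {x : MulAut ↥(D.group F)} (hx : x ∈ NI D F) : Lift (NI D F) x ψ := by
  obtain ⟨k, hk⟩ := IsCyclic.exists_generator (α := Fˣ)
  have hk1 := gen_ne_one hq hk
  have hkz : ∀ e : ℤ, e = 1 ∨ e = -1 → (k : F) ^ e ≠ 1 := by
    rintro e (rfl | rfl)
    · rwa [zpow_one]
    · rw [zpow_neg, zpow_one]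
      exact fun h => hk1 (inv_eq_one.1 h)
  have hh : ∀ s < D.nroots, (k : F) ^ D.cartan i s ≠ 0 ∧
      ∀ t, MulAut.conj (he hD (D.simple i) (k : F)) (xe hD s t) = xe hD s ((k : F) ^ D.cartan i s * t) := fun s hs =>
    ⟨zpow_ne_zero _ k.ne_zero, fun t => by rw [MulAut.conj_apply, he_conj hD hi hs k.ne_zero]⟩
  refine lift_congr (x' := MulAut.conj (he hD (D.simple i) (k : F))) (y' := ψ)
    ((NI D F).mul_mem ((NI D F).inv_mem hx) ⟨_, rfl⟩) (by rw [inv_mul_cancel]; exact one_mem _) ?_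
  exact lift_two' hh hψ hl hW hW' ha ha' haa hb hb' hbb
    (irr_of_gen hk (e := D.cartan i a) (by rcases c1 with h | h <;> simp [h]) rfl) (hkz _ c1) (hkz _ c2)
    (by simp only [c3, zpow_zero]) (irr_of_gen hk c4 rfl) hrun

/-! ### the field with two elements -/

theorem has_of_two (hF : ∀ x : F, x = 0 ∨ x = 1) {M : Subgroup (MulAut ↥(D.group F))} {r : ℕ}
    (h : MulAut.conj (xe hD r 1) ∈ M) : Has hD (ofM M) r := by
  rw [has_iff]
  intro t
  rcases hF t with rfl | rfl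
  · rw [xe_zero, map_one]; exact M.one_mem
  · exact h

/-- **The field with two elements, `x` inner.** -/
theorem lift_F2 (hF : ∀ x : F, x = 0 ∨ x = 1) {ψ : MulAut ↥(D.group F)} {P : ℕ → ℕ} {c : ℕ → F}
    {σ : ℕ → (F ≃+* F)} (hψ : Mono hD ψ P c σ) {l : List ℕ} (hl : ∀ i ∈ l, i < D.rank) {W : ℕ → ℕ}
    (hW : ∀ s < D.nroots, W s = wact D l (P s)) {a : ℕ}
    {steps : List (ℕ × ℕ)} (hrun : run D W (1 <<< a) steps = 2 ^ D.nroots - 1)
    {x : MulAut ↥(D.group F)} (hx : x ∈ NI D F) : Lift (NI D F) x ψ := by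
  obtain ⟨c', hc'⟩ := mono_we (F := F) (hD := hD) hl
  set v := MulAut.conj (we hD F l) * ψ with hv
  have hvm : Mono hD v W (fun s => c' (P s) * (1 : F ≃+* F) (c s)) fun s => 1 * σ s :=
    (hc'.mul hψ).congr (fun s hs => hW s hs) (fun _ _ => rfl) fun _ _ => rfl
  apply lift_of (x' := MulAut.conj (xe hD a 1)) (y' := v)
  · exact (NI D F).mul_mem ((NI D F).inv_mem hx) ⟨_, rfl⟩
  · rw [hv]
    exact inv_mul_conj_mul _ _
  · set M := Subgroup.closure {MulAut.conj (xe hD a 1), v} with hM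
    have m1 : MulAut.conj (xe hD a 1) ∈ M := Subgroup.subset_closure (by simp)
    have m2 : v ∈ M := Subgroup.subset_closure (by simp)
    refine inn_le_of_run hvm m2 (S := 1 <<< a) ?_ hrun
    intro r hr
    rw [Nat.one_shiftLeft, Nat.testBit_two_pow] at hr
    have : a = r := by simpa using hr
    exact this ▸ has_of_two hF m1

/-! ### the automorphisms without field part -/

variable (hD F) in
/-- inner times monomial without field part -/
def KK [Finite F] : Subgroup (MulAut ↥(D.group F)) where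
  carrier := {θ | ∃ g ψ W c, θ = MulAut.conj g * ψ ∧ Mono hD ψ W c fun _ => 1}
  one_mem' := ⟨1, 1, _, _, by simp, mono_one⟩
  mul_mem' := by
    rintro _ _ ⟨g, ψ, W, c, rfl, h⟩ ⟨g', ψ', W', c', rfl, h'⟩
    refine ⟨g * ψ g', ψ * ψ', _, _, ?_, (h.mul h').congr (fun _ _ => rfl) (fun _ _ => rfl) fun _ _ => rfl⟩
    rw [map_mul, ← conj_conj]
    group
  inv_mem' := by
    intro θ hθ
    -- closed under powers
    have hm : ∀ {θ θ' : MulAut ↥(D.group F)}, (∃ g ψ W c, θ = MulAut.conj g * ψ ∧ Mono hD ψ W c fun _ => 1) →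
        (∃ g ψ W c, θ' = MulAut.conj g * ψ ∧ Mono hD ψ W c fun _ => 1) →
        ∃ g ψ W c, θ * θ' = MulAut.conj g * ψ ∧ Mono hD ψ W c fun _ => 1 := by
      rintro _ _ ⟨g, ψ, W, c, rfl, h⟩ ⟨g', ψ', W', c', rfl, h'⟩
      refine ⟨g * ψ g', ψ * ψ', _, _, ?_, (h.mul h').congr (fun _ _ => rfl) (fun _ _ => rfl) fun _ _ => rfl⟩
      rw [map_mul, ← conj_conj]
      group
    have hpow : ∀ n : ℕ, ∃ g ψ W c, θ ^ n = MulAut.conj g * ψ ∧ Mono hD ψ W c fun _ => 1 := by
      intro n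
      induction n with
      | zero => exact ⟨1, 1, _, _, by simp, mono_one⟩
      | succ n ih => rw [pow_succ]; exact hm ih hθ
    have hfin : Finite (MulAut ↥(D.group F)) := inferInstance
    have h1 : θ⁻¹ = θ ^ (orderOf θ - 1) := by
      rw [inv_eq_iff_mul_eq_one, ← pow_succ', Nat.sub_add_cancel (orderOf_pos θ), pow_orderOf_eq_one]
    rw [h1]
    exact hpow _

theorem mem_KK [Finite F] {θ : MulAut ↥(D.group F)} :
    θ ∈ KK hD F ↔ ∃ g ψ W c, θ = MulAut.conj g * ψ ∧ Mono hD ψ W c fun _ => 1 := Iff.rfl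

theorem fl_mul_inv (τ : F ≃+* F) : (fl D τ)⁻¹ = fl D τ⁻¹ := by
  rw [inv_eq_iff_mul_eq_one, ← Cfsg.Agent.CpAut.RgdUntw.fld_mul, mul_inv_cancel, Cfsg.Agent.CpAut.RgdUntw.fld_one]

theorem fl_conj_mem [Finite F] (τ : F ≃+* F) {θ : MulAut ↥(D.group F)} (h : θ ∈ KK hD F) :
    fl D τ * θ * (fl D τ)⁻¹ ∈ KK hD F := by
  obtain ⟨g, ψ, W, c, rfl, h⟩ := h
  refine ⟨fl D τ g, fl D τ * ψ * fl D τ⁻¹, W, fun s => τ (c s), ?_, ?_⟩
  · rw [← conj_conj, ← fl_mul_inv]
    group
  · refine ((mono_fl τ).mul h |>.mul (mono_fl τ⁻¹)).congr (fun _ _ => rfl) (fun s _ => ?_) fun s _ => ?_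
    · simp
    · apply RingEquiv.ext
      intro t
      simp

/-- **The quotient by `KK` is cyclic.** -/
theorem normal_KK [Finite F] (hfull : ∀ θ : MulAut ↥(D.group F), ∃ κ ∈ KK hD F, ∃ τ, θ = κ * fl D τ) :
    (KK hD F).Normal where
  conj_mem := by
    intro θ hθ η
    obtain ⟨κ, hκ, τ, rfl⟩ := hfull η
    have h1 := (KK hD F).mul_mem ((KK hD F).mul_mem hκ (fl_conj_mem τ hθ)) ((KK hD F).inv_mem hκ)
    have e : κ * fl D τ * θ * (κ * fl D τ)⁻¹ = κ * (fl D τ * θ * (fl D τ)⁻¹) * κ⁻¹ := by group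
    rw [e]
    exact h1

/-- **Reduction to `x` without field part.** -/
theorem lift_of_KK [Finite F] (hfull : ∀ θ : MulAut ↥(D.group F), ∃ κ ∈ KK hD F, ∃ τ, θ = κ * fl D τ)
    [IsCyclic (F ≃+* F)] (h : ∀ x y, x ∈ KK hD F → Lift (NI D F) x y) (x y : MulAut ↥(D.group F)) :
    Lift (NI D F) x y := by
  have hn := normal_KK hfull
  let f : (F ≃+* F) →* (MulAut ↥(D.group F)) ⧸ (KK hD F) :=
    (QuotientGroup.mk' (KK hD F)).comp (MonoidHom.mk' (fun τ => fl D τ) Cfsg.Agent.CpAut.RgdUntw.fld_mul)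
  have hf : Function.Surjective f := by
    intro u
    obtain ⟨θ, rfl⟩ := QuotientGroup.mk_surjective u
    obtain ⟨κ, hκ, τ, rfl⟩ := hfull θ
    refine ⟨τ, ?_⟩
    change ((fl D τ : MulAut ↥(D.group F)) : (MulAut ↥(D.group F)) ⧸ (KK hD F)) = _
    rw [QuotientGroup.mk_mul, (QuotientGroup.eq_one_iff κ).2 hκ, one_mul]
  have hc : IsCyclic ((MulAut ↥(D.group F)) ⧸ (KK hD F)) := isCyclic_of_surjective f hf
  have hfin : Finite (MulAut ↥(D.group F)) := inferInstance
  refine lift_of_cyclic (QuotientGroup.mk' (KK hD F)) (fun x y hx => h x y ?_) x y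
  exact (QuotientGroup.eq_one_iff x).1 hx

end Cfsg.Agent.H134.Cos
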