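import Cfsg.Agent.H134.Cos.Pair
import Cfsg.Agent.H70.OutE
import Cfsg.Agent.H69.OutGF
import Cfsg.Agent.LieRecognition.FieldSemilinear

/-!
# Diagram symmetries as permutations of the roots (helper134, for S4180)

* `PE6`, `PF4`, `PG2`, `PB2`, `PD4 k` : the extensions of the diagram symmetries to the roots (`Ext`);
* `KX`, `lift_of_KX` : reduction to `x` without field part, `KX` = inner times monomial along a diagram symmetry;
* `full_of` : every automorphism is in `KX` times a field automorphism if the diagram symmetries preserve the Cartan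
  integers.
-/

set_option autoImplicit false
set_option linter.unusedSectionVars false

namespace Cfsg.Agent.H134.Cos

open scoped Pointwise
open Cfsg Cfsg.Lie Cfsg.Agent.ChevalleyStructure Cfsg.Agent.ChevalleyStructure.Elts
  Cfsg.Agent.ChevalleyStructure.NConj Cfsg.Agent.ChevalleyStructure.BNChev Cfsg.Agent.S1042
  Cfsg.Agent.Schreier.ChevLocal Cfsg.Agent.H70.AutFix Cfsg.Agent.H70.ChevTab Cfsg.Agent.H70.ChevFix
  Cfsg.Agent.H70.ChevField Cfsg.Agent.H70.OutCount Cfsg.Agent.H135.TwoG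
open Cfsg.Agent.H891.Gen (Lift)

universe u

/-! ### the tables -/

/-- the graph automorphism of `E₆` on the roots -/
def PE6 (s : ℕ) : ℕ := [0, 1, 2, 5, 16, 3, 6, 17, 8, 19, 22, 11, 26, 30, 33, 35, 4, 7, 18, 9, 20, 23, 10, 21, 24, 25, 12, 27, 31, 34, 13, 28, 32, 14, 29, 15, 56, 42, 57, 39, 43, 58, 37, 40, 44, 59, 46, 47, 50, 61, 48, 51, 62, 53, 64, 67, 36, 38, 41, 45, 60, 49, 52, 63, 54, 65, 68, 55, 66, 69, 70, 71].getD s 0

/-- the flip of `F₄` on the roots -/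
def PF4 (s : ℕ) : ℕ := [3, 7, 8, 0, 9, 11, 18, 1, 2, 4, 15, 5, 16, 21, 23, 10, 12, 19, 6, 17, 22, 13, 20, 14, 33, 27, 34, 25, 30, 41, 28, 35, 37, 24, 26, 31, 42, 32, 43, 45, 46, 29, 36, 38, 47, 39, 40, 44].getD s 0

/-- the flip of `G₂` on the roots -/
def PG2 (s : ℕ) : ℕ := [2, 3, 0, 1, 5, 4, 7, 6, 10, 11, 8, 9].getD s 0

/-- the flip of `B₂` on the roots -/
def PB2 (s : ℕ) : ℕ := [1, 0, 3, 2, 5, 4, 7, 6].getD s 0

/-- the flip of `B₂` -/
def flipB2 : Equiv.Perm (Fin chevB2.rank) := (Equiv.swap 0 1 : Equiv.Perm (Fin 2))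

theorem ext_E6 : Ext chevE6 Cfsg.Agent.H70.OutE.flip PE6 := by decide +kernel
theorem ext_F4 : Ext chevF4 Cfsg.Agent.H69.OutGF.flip4 PF4 := by decide +kernel
theorem ext_G2 : Ext chevG2 Cfsg.Agent.H69.OutGF.flip2 PG2 := by decide +kernel
theorem ext_B2 : Ext chevB2 flipB2 PB2 := by decide +kernel

/-! ### generalities on `Ext` -/

section ext

variable {D : ChevalleyDatum}

theorem Ext.one : Ext D 1 fun s => s := ⟨fun _ => rfl, fun _ hs => hs, fun _ _ _ => rfl⟩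

theorem Ext.mul {π π' : Equiv.Perm (Fin D.rank)} {P P' : ℕ → ℕ} (h : Ext D π P) (h' : Ext D π' P') :
    Ext D (π * π') fun s => P (P' s) := by
  refine ⟨fun i => ?_, fun s hs => h.2.1 _ (h'.2.1 s hs), fun i s hs => ?_⟩
  · change P (P' _) = _
    rw [h'.1, h.1]
    rfl
  · change P (P' _) = _
    rw [h'.2.2 i s hs, h.2.2 _ _ (h'.2.1 s hs)]
    rfl

/-- the extension is unique -/
theorem Ext.unique (hD : InList D) {π : Equiv.Perm (Fin D.rank)} {P P' : ℕ → ℕ} (h : Ext D π P) (h' : Ext D π P') :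
    ∀ s < D.nroots, P s = P' s := by
  have key : ∀ s < D.nroots, s < D.nroots ∧ P s = P' s := by
    refine Reach.reach hD (fun s => s < D.nroots ∧ P s = P' s) ?_ ?_
    · intro i hi
      exact ⟨simple_lt hD hi, by rw [h.1 ⟨i, hi⟩, h'.1 ⟨i, hi⟩]⟩
    · rintro i hi s hs ⟨-, e⟩
      exact ⟨Reach.reflect_lt hD hi hs, by rw [h.2.2 ⟨i, hi⟩ s hs, h'.2.2 ⟨i, hi⟩ s hs, e]⟩
  exact fun s hs => (key s hs).2

/-- the extension of a product with trivial effect -/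
theorem Ext.comp_id (hD : InList D) {π : Equiv.Perm (Fin D.rank)} {P : ℕ → ℕ} (h : Ext D π P) (hπ : π * π = 1) :
    ∀ s < D.nroots, P (P s) = s := by
  have h1 := h.mul h
  rw [hπ] at h1
  exact h1.unique hD Ext.one

end ext

variable {D : ChevalleyDatum} {hD : InList D} {F : Type u} [Field F]

/-- the symmetry preserves the Cartan integers -/
def Sym (D : ChevalleyDatum) (π : Equiv.Perm (Fin D.rank)) : Prop :=
  ∀ i j : Fin D.rank, D.cartan (π i) (D.simple (π j)) = D.cartan i (D.simple j)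

instance (D : ChevalleyDatum) (π : Equiv.Perm (Fin D.rank)) : Decidable (Sym D π) := by
  unfold Sym; infer_instance

theorem Sym.one : Sym D 1 := fun _ _ => rfl

/-- **The automorphisms along a symmetry preserving the Cartan integers.** -/
theorem mono_of_sym {ψ : MulAut ↥(D.group F)} {π : Equiv.Perm (Fin D.rank)} (h : Perm D F ψ π) (hs : Sym D π)
    {P : ℕ → ℕ} (hP : Ext D π P) : ∃ c τ, Mono hD ψ P c fun _ => τ := by
  obtain ⟨c, σ, hc, h1, h2, h3⟩ := exists_field hD h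
  obtain ⟨τ, hτ⟩ := sigma_eq hD (σ := σ) fun i j a ha => by rw [h3 i j a ha, hs]
  obtain ⟨c', σ', hm, hσ⟩ := mono_of_simple (hD := hD) hc h1 h2 hP
  refine ⟨c', τ, hm.congr (fun _ _ => rfl) (fun _ _ => rfl) fun s hs => ?_⟩
  obtain ⟨i, hi⟩ := hσ s hs
  rw [hi, hτ]

/-- a `Mono` along a symmetry is a `Perm` -/
theorem perm_of_mono {ψ : MulAut ↥(D.group F)} {π : Equiv.Perm (Fin D.rank)} {P : ℕ → ℕ} (hP : Ext D π P)
    (hPn : ∀ i : Fin D.rank, P (D.neg (D.simple i)) = D.neg (D.simple (π i))) {c : ℕ → F}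
    {σ : ℕ → (F ≃+* F)} (h : Mono hD ψ P c σ) : Perm D F ψ π := by
  have key : ∀ s < D.nroots, Function.Surjective fun t : F => c s * σ s t := fun s hs u =>
    ⟨(σ s).symm ((c s)⁻¹ * u), by
      change c s * σ s ((σ s).symm ((c s)⁻¹ * u)) = u
      rw [RingEquiv.apply_symm_apply, ← mul_assoc, mul_inv_cancel₀ (h.ne s hs), one_mul]⟩
  refine ⟨fun i => ?_, fun i => ?_⟩
  · rw [← hP.1]
    exact Cfsg.Agent.H69.OutGF.smul_XX hD (key _ (simple_lt hD i.2)) (h.eq _ (simple_lt hD i.2))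
  · rw [← hPn]
    exact Cfsg.Agent.H69.OutGF.smul_XX hD (key _ (neg_simple_lt hD i.2)) (h.eq _ (neg_simple_lt hD i.2))

/-- negatives -/
theorem Ext.neg (hD : InList D) {π : Equiv.Perm (Fin D.rank)} {P : ℕ → ℕ} (h : Ext D π P) (i : Fin D.rank) :
    P (D.neg (D.simple i)) = D.neg (D.simple (π i)) := by
  have h1 : ∀ i : ℕ, D.reflectRoot i (D.simple i) = D.neg (D.simple i) := fun i => if_pos rfl
  have h2 := h.2.2 i _ (simple_lt hD i.2)
  rw [h1, h.1, h1] at h2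
  exact h2

/-! ### the automorphisms without field part -/

variable (hD F) in
/-- inner times monomial along a diagram symmetry, without field part -/
def KX [Finite F] : Subgroup (MulAut ↥(D.group F)) where
  carrier := {θ | ∃ g ψ π P c, θ = MulAut.conj g * ψ ∧ Ext D π P ∧ Mono hD ψ P c fun _ => 1}
  one_mem' := ⟨1, 1, 1, _, _, by simp, Ext.one, mono_one⟩
  mul_mem' := by
    rintro _ _ ⟨g, ψ, π, P, c, rfl, hP, h⟩ ⟨g', ψ', π', P', c', rfl, hP', h'⟩
    refine ⟨g * ψ g', ψ * ψ', π * π', _, _, ?_, hP.mul hP', (h.mul h').congr (fun _ _ => rfl) (fun _ _ => rfl) fun _ _ => rfl⟩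
    rw [map_mul, ← conj_conj]
    group
  inv_mem' := by
    intro θ hθ
    have hm : ∀ {θ θ' : MulAut ↥(D.group F)}, (∃ g ψ π P c, θ = MulAut.conj g * ψ ∧ Ext D π P ∧ Mono hD ψ P c fun _ => 1) →
        (∃ g ψ π P c, θ' = MulAut.conj g * ψ ∧ Ext D π P ∧ Mono hD ψ P c fun _ => 1) →
        ∃ g ψ π P c, θ * θ' = MulAut.conj g * ψ ∧ Ext D π P ∧ Mono hD ψ P c fun _ => 1 := by
      rintro _ _ ⟨g, ψ, π, P, c, rfl, hP, h⟩ ⟨g', ψ', π', P', c', rfl, hP', h'⟩
      refine ⟨g * ψ g', ψ * ψ', π * π', _, _, ?_, hP.mul hP', (h.mul h').congr (fun _ _ => rfl) (fun _ _ => rfl) fun _ _ => rfl⟩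
      rw [map_mul, ← conj_conj]
      group
    have hpow : ∀ n : ℕ, ∃ g ψ π P c, θ ^ n = MulAut.conj g * ψ ∧ Ext D π P ∧ Mono hD ψ P c fun _ => 1 := by
      intro n
      induction n with
      | zero => exact ⟨1, 1, 1, _, _, by simp, Ext.one, mono_one⟩
      | succ n ih => rw [pow_succ]; exact hm ih hθ
    have hfin : Finite (MulAut ↥(D.group F)) := inferInstance
    have h1 : θ⁻¹ = θ ^ (orderOf θ - 1) := by
      rw [inv_eq_iff_mul_eq_one, ← pow_succ', Nat.sub_add_cancel (orderOf_pos θ), pow_orderOf_eq_one]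
    rw [h1]
    exact hpow _

/-- the elements of `KX` -/
theorem exists_of_mem_KX [Finite F] {θ : MulAut ↥(D.group F)} (h : θ ∈ KX hD F) :
    ∃ g ψ π P c, θ = MulAut.conj g * ψ ∧ Ext D π P ∧ (Mono hD ψ P c fun _ => 1) ∧ Perm D F ψ π := by
  obtain ⟨g, ψ, π, P, c, h1, h2, h3⟩ := h
  exact ⟨g, ψ, π, P, c, h1, h2, h3, perm_of_mono h2 (h2.neg hD) h3⟩

theorem fl_conj_mem_KX [Finite F] (τ : F ≃+* F) {θ : MulAut ↥(D.group F)} (h : θ ∈ KX hD F) :
    fl D τ * θ * (fl D τ)⁻¹ ∈ KX hD F := by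
  obtain ⟨g, ψ, π, P, c, rfl, hP, h⟩ := h
  refine ⟨fl D τ g, fl D τ * ψ * fl D τ⁻¹, π, P, fun s => τ (c s), ?_, hP, ?_⟩
  · rw [← conj_conj, ← fl_mul_inv]
    group
  · refine ((mono_fl τ).mul h |>.mul (mono_fl τ⁻¹)).congr (fun _ _ => rfl) (fun s _ => ?_) fun s _ => ?_
    · simp
    · apply RingEquiv.ext
      intro t
      simp

/-- **Every automorphism is in `KX` times a field automorphism.** -/
theorem full_of [Finite F] (h : ∀ π ∈ realised hD F, Sym D π ∧ ∃ P, Ext D π P) (θ : MulAut ↥(D.group F)) :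
    ∃ κ ∈ KX hD F, ∃ τ, θ = κ * fl D τ := by
  obtain ⟨g, ψ, π, rfl, hπ⟩ := exists_perm_form hD θ
  obtain ⟨hs, P, hP⟩ := h π ⟨ψ, hπ⟩
  obtain ⟨c, τ, hm⟩ := mono_of_sym (hD := hD) hπ hs hP
  refine ⟨MulAut.conj g * (ψ * fl D τ⁻¹), ⟨g, ψ * fl D τ⁻¹, π, P, c, rfl, hP, ?_⟩, τ, ?_⟩
  · refine (hm.mul (mono_fl τ⁻¹)).congr (fun _ _ => rfl) (fun s _ => ?_) fun s _ => ?_
    · rw [map_one, mul_one]
    · exact (mul_inv_cancel τ).symm
  · rw [← fl_mul_inv]
    group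

/-- **Reduction to `x` without field part.** -/
theorem lift_of_KX [Finite F] (hfull : ∀ θ : MulAut ↥(D.group F), ∃ κ ∈ KX hD F, ∃ τ, θ = κ * fl D τ)
    (h : ∀ x y, x ∈ KX hD F → Lift (NI D F) x y) (x y : MulAut ↥(D.group F)) : Lift (NI D F) x y := by
  have hcyc : IsCyclic (F ≃+* F) := Cfsg.Agent.LieRecognition.FieldSemilinear.isCyclic_ringAut F
  have hn : (KX hD F).Normal := by
    constructor
    intro θ hθ η
    obtain ⟨κ, hκ, τ, rfl⟩ := hfull η
    have h1 := (KX hD F).mul_mem ((KX hD F).mul_mem hκ (fl_conj_mem_KX τ hθ)) ((KX hD F).inv_mem hκ)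
    have e : κ * fl D τ * θ * (κ * fl D τ)⁻¹ = κ * (fl D τ * θ * (fl D τ)⁻¹) * κ⁻¹ := by group
    rw [e]
    exact h1
  let f : (F ≃+* F) →* (MulAut ↥(D.group F)) ⧸ (KX hD F) :=
    (QuotientGroup.mk' (KX hD F)).comp (MonoidHom.mk' (fun τ => fl D τ) Cfsg.Agent.CpAut.RgdUntw.fld_mul)
  have hf : Function.Surjective f := by
    intro u
    obtain ⟨θ, rfl⟩ := QuotientGroup.mk_surjective u
    obtain ⟨κ, hκ, τ, rfl⟩ := hfull θ
    refine ⟨τ, ?_⟩
    change ((fl D τ : MulAut ↥(D.group F)) : (MulAut ↥(D.group F)) ⧸ (KX hD F)) = _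
    rw [QuotientGroup.mk_mul, (QuotientGroup.eq_one_iff κ).2 hκ, one_mul]
  have hc : IsCyclic ((MulAut ↥(D.group F)) ⧸ (KX hD F)) := isCyclic_of_surjective f hf
  have hfin : Finite (MulAut ↥(D.group F)) := inferInstance
  refine lift_of_cyclic (QuotientGroup.mk' (KX hD F)) (fun x y hx => h x y ?_) x y
  exact (QuotientGroup.eq_one_iff x).1 hx

/-- the symmetries of `D₄`: 1, (2 3), (0 2), (0 2 3), (0 3 2), (0 3) on the outer nodes 0, 2, 3 -/
def piD4 : List (Equiv.Perm (Fin 4)) :=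
  [1, Equiv.swap 2 3, Equiv.swap 0 2, Equiv.swap 0 2 * Equiv.swap 2 3, Equiv.swap 0 3 * Equiv.swap 2 3, Equiv.swap 0 3]

end Cfsg.Agent.H134.Cos
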